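import Cfsg.Prelude.Def_Local
import Cfsg.Agent.Lib.GWApps.Basic
import Cfsg.Agent.Lib.Cores.GenFitting
import Cfsg.Agent.Lib.SL2.Dickson.Generation
import Cfsg.Agent.Lib.CharDegrees.PSLTwoClasses
import Cfsg.Agent.Lib.SL2.Dickson.Sixty
import Cfsg.Agent.Lib.ClassicalLinear.Card
import Cfsg.Agent.Lib.ClassicalLinear.Simple
import Cfsg.Agent.S0495
import Cfsg.Agent.S0811
import Cfsg.Agent.S0812

/-!
# Dihedral Sylow 2-subgroups and an involution centraliser in a component-free subgroup

In `PSL₂(q)`, `q ≥ 11` odd, the centraliser of an involution is a maximal subgroup; with the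
Gorenstein-Walter theorem this leaves `A₅`, `A₇`, `L₃(2)` and `PSL₂(9)`.
-/

set_option autoImplicit false
set_option linter.style.haveILetI false
open Cfsg
open scoped commutatorElement

namespace CfsgLib.GWApps.DihedralLocal

universe u

section PSL

variable {F : Type*} [Field F] [Fintype F]

local notation "P₂" => Matrix.ProjectiveSpecialLinearGroup (Fin 2) F

/-- `PSL₂(q)` has a single class of involutions. -/
theorem isConj_of_orderOf_two (h2 : (2 : F) ≠ 0) {x y : P₂} (hx : orderOf x = 2)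
    (hy : orderOf y = 2) : IsConj x y := by
  obtain ⟨g, rfl⟩ := QuotientGroup.mk'_surjective _ x
  obtain ⟨h, rfl⟩ := QuotientGroup.mk'_surjective _ y
  have key : ∀ k : Matrix.SpecialLinearGroup (Fin 2) F,
      orderOf (CfsgLib.CharDegrees.proj₂ k) = 2 → CfsgLib.SL2.tr k = 0 := by
    intro k hk
    refine CfsgLib.SL2.Dickson.tr_eq_zero_of_sq_mem_center (fun hc => ?_) ?_
    · have h1 : CfsgLib.CharDegrees.proj₂ k = 1 := (QuotientGroup.eq_one_iff k).2 hc
      rw [h1, orderOf_one] at hk
      omega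
    · have h1 : CfsgLib.CharDegrees.proj₂ (k ^ 2) = 1 := by
        have h' := pow_orderOf_eq_one (CfsgLib.CharDegrees.proj₂ k)
        rw [hk] at h'
        rw [map_pow]
        exact h'
      exact (QuotientGroup.eq_one_iff _).1 h1
  have hg := key g hx
  have hh := key h hy
  refine CfsgLib.CharDegrees.isConj_proj₂ (g := g) (h := h) ?_ (by rw [hg, hh])
  rw [hg]
  intro h4
  refine h2 ?_
  have : (2 : F) * 2 = 0 := by linear_combination -h4
  exact mul_self_eq_zero.1 this

/-- For `q ≥ 11` odd some maximal subgroup of `PSL₂(q)` has a central involution. -/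
theorem exists_isCoatom_central (hodd : Odd (Fintype.card F)) (h11 : 11 ≤ Fintype.card F) :
    ∃ (H : Subgroup P₂) (z : P₂), IsCoatom H ∧ orderOf z = 2 ∧
      H ≤ Subgroup.centralizer ({z} : Set P₂) := by
  obtain ⟨k, hk⟩ := hodd
  have hg : Nat.gcd 2 (Fintype.card F - 1) = 2 :=
    Nat.gcd_eq_left ⟨k, by omega⟩
  obtain ⟨H, hH, n, hn, ⟨e⟩⟩ : ∃ H : Subgroup P₂, IsCoatom H ∧
      ∃ n : ℕ, 1 ≤ n ∧ Nonempty (H ≃* DihedralGroup (2 * n)) := by
    rcases Nat.even_or_odd k with ⟨j, hj⟩ | ⟨j, hj⟩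
    · obtain ⟨H, hH, ⟨e⟩⟩ := Cfsg.Agent.S0812.result (F := F) rfl
        (by simp only [Finset.mem_insert, Finset.mem_singleton, not_or]; omega)
      have he : (Fintype.card F - 1) / Nat.gcd 2 (Fintype.card F - 1) = 2 * j := by
        rw [hg]; omega
      rw [he] at e
      exact ⟨H, hH, j, by omega, ⟨e⟩⟩
    · obtain ⟨H, hH, ⟨e⟩⟩ := Cfsg.Agent.S0811.result (F := F) rfl
        (by simp only [Finset.mem_insert, Finset.mem_singleton, not_or]; omega)
      have he : (Fintype.card F + 1) / Nat.gcd 2 (Fintype.card F - 1) = 2 * (j + 1) := by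
        rw [hg]; omega
      rw [he] at e
      exact ⟨H, hH, j + 1, by omega, ⟨e⟩⟩
  haveI : NeZero (2 * n) := ⟨by omega⟩
  have hord : orderOf (DihedralGroup.r (n : ZMod (2 * n)) : DihedralGroup (2 * n)) = 2 := by
    rw [DihedralGroup.orderOf_r, ZMod.val_natCast, Nat.mod_eq_of_lt (by omega),
      Nat.gcd_eq_right (Dvd.intro_left 2 rfl)]
    exact Nat.mul_div_cancel 2 (by omega)
  have hnn : (n : ZMod (2 * n)) + n = 0 := by
    rw [← Nat.cast_add, ← two_mul, ZMod.natCast_self]
  have hneg : -(n : ZMod (2 * n)) = n := neg_eq_of_add_eq_zero_left hnn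
  have hcen : ∀ d : DihedralGroup (2 * n),
      DihedralGroup.r (n : ZMod (2 * n)) * d = d * DihedralGroup.r (n : ZMod (2 * n)) := by
    rintro (i | i)
    · rw [DihedralGroup.r_mul_r, DihedralGroup.r_mul_r, add_comm]
    · rw [DihedralGroup.r_mul_sr, DihedralGroup.sr_mul_r, sub_eq_add_neg, hneg]
  set z : H := e.symm (DihedralGroup.r (n : ZMod (2 * n))) with hz
  refine ⟨H, (z : P₂), hH, ?_, ?_⟩
  · rw [Subgroup.orderOf_coe, hz, e.symm.orderOf_eq, hord]
  · intro x hx
    rw [Subgroup.mem_centralizer_singleton_iff]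
    have h1 : z * (⟨x, hx⟩ : H) = (⟨x, hx⟩ : H) * z := by
      apply e.injective
      rw [map_mul, map_mul, hz, e.apply_symm_apply]
      exact hcen _
    exact (congrArg Subtype.val h1).symm

/-- For `q ≥ 11` odd the centraliser of an involution in `PSL₂(q)` is maximal. -/
theorem isCoatom_centralizer (hodd : Odd (Fintype.card F)) (h11 : 11 ≤ Fintype.card F)
    {t : P₂} (ht : orderOf t = 2) : IsCoatom (Subgroup.centralizer ({t} : Set P₂)) := by
  haveI : IsSimpleGroup P₂ := CfsgLib.ClassicalLinear.isSimpleGroup_psl_fin le_rfl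
    (fun _ => by rw [Nat.card_eq_fintype_card]; omega)
  have h2 : (2 : F) ≠ 0 := by
    intro h
    have hc : ringChar F = 2 := CharP.ringChar_of_prime_eq_zero Nat.prime_two (by exact_mod_cast h)
    have := FiniteField.even_card_of_char_two hc
    exact absurd hodd (Nat.not_odd_iff_even.2 (Nat.even_iff.2 this))
  obtain ⟨H, z, hH, hzo, hHz⟩ := exists_isCoatom_central (F := F) hodd h11
  have hne : Subgroup.centralizer ({z} : Set P₂) ≠ ⊤ := by
    intro htop
    have hzc : z ∈ Subgroup.center P₂ := Subgroup.mem_center_iff.2 fun g =>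
      Subgroup.mem_centralizer_singleton_iff.1 (htop ▸ Subgroup.mem_top g)
    rcases (inferInstance : (Subgroup.center P₂).Normal).eq_bot_or_eq_top with h | h
    · rw [h, Subgroup.mem_bot] at hzc
      rw [hzc, orderOf_one] at hzo
      omega
    · obtain ⟨a, b, hab⟩ : ∃ a b : P₂, a * b ≠ b * a := by
        by_contra hall
        push Not at hall
        have hp : (Nat.card P₂).Prime := by
          haveI : IsMulCommutative P₂ := ⟨⟨hall⟩⟩
          letI : CommGroup P₂ := { (inferInstance : Group P₂) with mul_comm := hall }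
          exact IsSimpleGroup.prime_card
        have h := CfsgLib.ClassicalLinear.card_PSL_two_of_odd (F := F) rfl hodd
        obtain ⟨k, hk⟩ := hodd
        set q := Fintype.card F with hq
        have h4 : 4 ∣ q ^ 2 - 1 := ⟨k * k + k, by rw [hk]; ring_nf; omega⟩
        obtain ⟨c, hc⟩ := h4
        rw [hc] at h
        have h' : Nat.card P₂ = 2 * (q * c) := by linarith
        have := (Nat.prime_dvd_prime_iff_eq Nat.prime_two hp).1 ⟨_, h'⟩
        have hc0 : 0 < c := by
          rcases Nat.eq_zero_or_pos c with rfl | h0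
          · simp at h'
            exact absurd h' (Nat.card_pos (α := P₂)).ne'
          · exact h0
        nlinarith
      exact hab (Subgroup.mem_center_iff.1 (h ▸ Subgroup.mem_top b) a)
  have hCz : IsCoatom (Subgroup.centralizer ({z} : Set P₂)) := by
    rcases hH.le_iff.1 hHz with h | h
    · exact absurd h hne
    · rw [h]; exact hH
  obtain ⟨g, hg⟩ := isConj_iff.1 (isConj_of_orderOf_two h2 hzo ht)
  subst hg
  refine ⟨fun htop => hne (eq_top_iff.2 fun x _ => ?_), fun M hM => ?_⟩
  · have hx : g * x * g⁻¹ ∈ Subgroup.centralizer ({g * z * g⁻¹} : Set P₂) := htop ▸ Subgroup.mem_top _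
    rw [Subgroup.mem_centralizer_singleton_iff] at hx ⊢
    refine mul_left_cancel (a := g) (mul_right_cancel (b := g⁻¹) ?_)
    calc g * (x * z) * g⁻¹ = g * x * g⁻¹ * (g * z * g⁻¹) := by group
      _ = g * z * g⁻¹ * (g * x * g⁻¹) := hx
      _ = g * (z * x) * g⁻¹ := by group
  · have hlt : Subgroup.centralizer ({z} : Set P₂) < M.comap (MulAut.conj g).toMonoidHom := by
      rw [SetLike.lt_iff_le_and_exists] at hM ⊢
      obtain ⟨hle, m, hm, hm'⟩ := hM
      refine ⟨fun x hx => hle ?_, g⁻¹ * m * g, ?_, ?_⟩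
      · rw [Subgroup.mem_centralizer_singleton_iff] at hx ⊢
        show g * x * g⁻¹ * (g * z * g⁻¹) = g * z * g⁻¹ * (g * x * g⁻¹)
        calc g * x * g⁻¹ * (g * z * g⁻¹) = g * (x * z) * g⁻¹ := by group
          _ = g * (z * x) * g⁻¹ := by rw [hx]
          _ = _ := by group
      · show g * (g⁻¹ * m * g) * g⁻¹ ∈ M
        simpa [mul_assoc] using hm
      · intro hx
        apply hm'
        rw [Subgroup.mem_centralizer_singleton_iff] at hx ⊢
        calc m * (g * z * g⁻¹) = g * (g⁻¹ * m * g * z) * g⁻¹ := by group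
          _ = g * (z * (g⁻¹ * m * g)) * g⁻¹ := by rw [hx]
          _ = _ := by group
    have := hCz.2 _ hlt
    refine eq_top_iff.2 fun x _ => ?_
    have h1 : g⁻¹ * x * g ∈ M.comap (MulAut.conj g).toMonoidHom := this ▸ Subgroup.mem_top _
    have h2' : g * (g⁻¹ * x * g) * g⁻¹ ∈ M := h1
    simpa [mul_assoc] using h2'

end PSL

variable {G : Type u} [Group G] [Finite G] [IsSimpleGroup G]

/-- S3287, given the Gorenstein-Walter theorem. -/
theorem classify (hGW : DihedralPerfect.{u}) (S : Sylow 2 G) (m : ℕ)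
    (eS : ↥(S : Subgroup G) ≃* DihedralGroup m) (t : G) (ht : orderOf t = 2) (K : Subgroup G)
    (hlt : Subgroup.centralizer ({t} : Set G) < K)
    (hK : Cfsg.generalizedFittingSubgroup ↥K = Cfsg.fittingSubgroup ↥K) :
    Nonempty (G ≃* ↥(alternatingGroup (Fin 5))) ∨ Nonempty (G ≃* ↥(alternatingGroup (Fin 7))) ∨
      (∃ (F : Type) (_ : Field F) (_ : Fintype F), Fintype.card F = 2 ∧
        Nonempty (G ≃* Matrix.ProjectiveSpecialLinearGroup (Fin 3) F)) ∨
      (∃ (F : Type) (_ : Field F) (_ : Fintype F), Fintype.card F = 9 ∧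
        Nonempty (G ≃* Matrix.ProjectiveSpecialLinearGroup (Fin 2) F)) := by
  classical
  haveI : Fact (Nat.Prime 2) := ⟨Nat.prime_two⟩
  have hnc : ¬ IsMulCommutative G := by
    intro hc
    have htop : Subgroup.centralizer ({t} : Set G) = ⊤ := eq_top_iff.2 fun x _ =>
      Subgroup.mem_centralizer_singleton_iff.2 (hc.is_comm.comm x t)
    rw [htop] at hlt
    exact not_top_lt hlt
  have hperf : commutator G = ⊤ := by
    rcases (inferInstance : (commutator G).Normal).eq_bot_or_eq_top with h | h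
    · refine absurd ⟨⟨fun a b => ?_⟩⟩ hnc
      have hab : ⁅a, b⁆ ∈ commutator G :=
        Subgroup.commutator_mem_commutator (Subgroup.mem_top a) (Subgroup.mem_top b)
      rw [h, Subgroup.mem_bot] at hab
      exact commutatorElement_eq_one_iff_mul_comm.1 hab
    · exact h
  haveI : Group.IsPerfect G := ⟨hperf⟩
  have heven : Even (Nat.card G) := even_iff_two_dvd.2 (ht ▸ orderOf_dvd_natCard t)
  have hm : 2 ≤ m := by
    rcases m with _ | _ | m
    · haveI : Finite (DihedralGroup 0) := Finite.of_equiv _ eS.toEquiv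
      exact absurd ‹Finite (DihedralGroup 0)› (not_finite_iff_infinite.2 inferInstance)
    · exfalso
      refine CfsgLib.Signalizer.not_isCyclic_sylow hperf heven S ?_
      haveI : IsCyclic (DihedralGroup 1) := isCyclic_of_prime_card (p := 2) (by rw [DihedralGroup.nat_card])
      exact isCyclic_of_surjective eS.symm.toMonoidHom eS.symm.surjective
    · omega
  have hO : Cfsg.oddCore G = ⊥ := by
    haveI : (Cfsg.oddCore G).Normal := by
      haveI := CfsgLib.Cores.pPrimeCore_characteristic 2 G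
      rw [Cfsg.oddCore]; infer_instance
    rcases (inferInstance : (Cfsg.oddCore G).Normal).eq_bot_or_eq_top with h | h
    · exact h
    exfalso
    have := CfsgLib.Cores.odd_card_oddCore (G := G)
    rw [h, Subgroup.card_top] at this
    exact Nat.not_even_iff_odd.2 this heven
  have hgw : GW.IsGWGroup G := GW.IsGWGroup.of_equiv
    ((QuotientGroup.quotientBot).symm.trans (QuotientGroup.quotientMulEquivOfEq hO.symm))
    (hGW G ⟨S, m, hm, ⟨eS⟩⟩)
  rcases hgw with ⟨F, hF, hF', hodd, h3, ⟨e⟩⟩ | h7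
  swap
  · exact Or.inr (Or.inl h7)
  have hcard := CfsgLib.ClassicalLinear.card_PSL_two_of_odd (F := F) rfl hodd
  rw [← Nat.card_congr e.toEquiv] at hcard
  by_cases h5 : Fintype.card F = 5
  · left
    rw [h5] at hcard
    have h60 : Nat.card G = 60 := by omega
    refine CfsgLib.SL2.Dickson.Sixty.nonempty_mulEquiv_alternating_five h60 fun R hR hn => ?_
    rcases hn.eq_bot_or_eq_top with h | h
    · rw [h, Subgroup.card_bot] at hR; omega
    · rw [h, Subgroup.card_top] at hR; omega
  by_cases h7 : Fintype.card F = 7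
  · right; right; left
    refine ⟨ZMod 2, inferInstance, inferInstance, ZMod.card 2, ?_⟩
    haveI : IsSimpleGroup (Matrix.ProjectiveSpecialLinearGroup (Fin 3) (ZMod 2)) :=
      CfsgLib.ClassicalLinear.isSimpleGroup_psl_fin (by norm_num) (fun h => absurd h (by norm_num))
    have hc3 : Nat.card (Matrix.ProjectiveSpecialLinearGroup (Fin 3) (ZMod 2)) = 168 := by
      have h := CfsgLib.ClassicalLinear.card_PSL (ι := Fin 3) (F := ZMod 2)
      rw [Fintype.card_fin, ZMod.card, show Nat.gcd 3 (2 - 1) = 1 from rfl, one_mul,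
        show (2 : ℕ) - 1 = 1 from rfl, one_mul, Fin.prod_univ_eq_prod_range (fun i => 2 ^ 3 - 2 ^ i) 3] at h
      rw [h]; decide
    obtain ⟨e3⟩ := Cfsg.Agent.S0495.result hc3 h7
    exact ⟨e.trans e3.symm⟩
  by_cases h9 : Fintype.card F = 9
  · exact Or.inr (Or.inr (Or.inr ⟨F, hF, hF', h9, ⟨e⟩⟩))
  exfalso
  obtain ⟨k, hk⟩ := hodd
  have hC := isCoatom_centralizer (F := F) ⟨k, hk⟩ (by omega) (t := e t)
    (by rw [e.orderOf_eq, ht])
  have hlt' : Subgroup.centralizer ({e t} : Set _) < K.map e.toMonoidHom := by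
    rw [SetLike.lt_iff_le_and_exists] at hlt ⊢
    obtain ⟨hle, x, hx, hx'⟩ := hlt
    refine ⟨fun y hy => ⟨e.symm y, hle ?_, e.apply_symm_apply y⟩, e x, ⟨x, hx, rfl⟩, ?_⟩
    · rw [Subgroup.mem_centralizer_singleton_iff] at hy ⊢
      apply e.injective
      simp only [map_mul, e.apply_symm_apply, hy]
    · intro h
      apply hx'
      rw [Subgroup.mem_centralizer_singleton_iff] at h ⊢
      exact e.injective (by simp only [map_mul, h])
  have hKtop : K = ⊤ := by
    refine eq_top_iff.2 fun x _ => ?_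
    have : e x ∈ K.map e.toMonoidHom := hC.2 _ hlt' ▸ Subgroup.mem_top _
    obtain ⟨y, hy, hyx⟩ := this
    exact e.injective hyx ▸ hy
  subst hKtop
  let eT : (⊤ : Subgroup G) ≃* G := Subgroup.topEquiv
  haveI : IsSimpleGroup (⊤ : Subgroup G) := eT.isSimpleGroup
  have hnc' : ¬ IsMulCommutative (⊤ : Subgroup G) := fun hc => hnc ⟨⟨fun a b =>
    congrArg Subtype.val (hc.is_comm.comm (⟨a, trivial⟩ : (⊤ : Subgroup G)) ⟨b, trivial⟩)⟩⟩
  rw [CfsgLib.Cores.generalizedFittingSubgroup_eq_top_of_isSimpleGroup hnc',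
    CfsgLib.Cores.fittingSubgroup_eq_bot_of_isSimpleGroup hnc'] at hK
  exact top_ne_bot hK

end CfsgLib.GWApps.DihedralLocal
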