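import Cfsg.Agent.Lib.GWApps.Quaternion
import Cfsg.Prelude.Def_SporadicB
import Cfsg.Agent.S3966

/-!
# Perfect groups of 2-rank one

Conditional on the Gorenstein-Walter theorem.
-/

set_option autoImplicit false
set_option linter.style.haveILetI false
open Cfsg
open scoped commutatorElement

namespace CfsgLib.GWApps

universe u

/-- In a group with a unique involution two subgroups of order two coincide. -/
theorem subgroup_eq_of_card_two {S : Type*} [Group S] [Finite S]
    (hu : ∀ a b : S, orderOf a = 2 → orderOf b = 2 → a = b) (A B : Subgroup S)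
    (hA : Nat.card A = 2) (hB : Nat.card B = 2) : A = B := by
  refine Subgroup.eq_of_le_of_card_ge (fun a ha => ?_) (by rw [hA, hB])
  haveI : Fact (Nat.Prime 2) := ⟨Nat.prime_two⟩
  rcases eq_or_ne a 1 with rfl | ha1
  · exact one_mem B
  obtain ⟨b, hb⟩ := exists_prime_orderOf_dvd_card' (G := B) 2 (by rw [hB])
  have ha2 : orderOf a = 2 := by
    refine orderOf_eq_prime ?_ ha1
    have := congrArg Subtype.val (pow_card_eq_one' (x := (⟨a, ha⟩ : A)))
    rwa [SubmonoidClass.coe_pow, OneMemClass.coe_one, hA] at this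
  exact hu a b ha2 ((Subgroup.orderOf_coe b).trans hb) ▸ b.2

/-- The image of a quaternion Sylow 2-subgroup modulo a central subgroup of order two is dihedral. -/
theorem hasDihedralSylow_quotient_two {G : Type u} [Group G] [Finite G] (S : Sylow 2 G) {k : ℕ}
    (hk : 2 ≤ k) (hev : Even k) (e : (S : Subgroup G) ≃* QuaternionGroup k) (Z : Subgroup G)
    [Z.Normal] (hZ2 : Nat.card Z = 2) : GW.HasDihedralSylow (G ⧸ Z) := by
  haveI : Fact (Nat.Prime 2) := ⟨Nat.prime_two⟩
  haveI : NeZero k := ⟨by omega⟩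
  have hρs : Function.Surjective (QuotientGroup.mk' Z) := QuotientGroup.mk'_surjective Z
  have hZS : Z ≤ (S : Subgroup G) :=
    (IsPGroup.of_card (G := Z) (p := 2) (n := 1) (by rw [hZ2, pow_one])).le_sylow_of_normal S
  obtain ⟨σ, hσ, hσ2⟩ := Cfsg.Agent.S3966.result k hev
  let f : (S : Subgroup G) →* (S : Subgroup G).map (QuotientGroup.mk' Z) :=
    (QuotientGroup.mk' Z).subgroupMap (S : Subgroup G)
  have hf : Function.Surjective f := MonoidHom.subgroupMap_surjective _ _
  let g : (S : Subgroup G) →* DihedralGroup k := σ.comp e.toMonoidHom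
  have hg : Function.Surjective g := hσ.1.comp e.surjective
  have hfk : Nat.card f.ker = 2 := by
    have : f.ker = Z.subgroupOf (S : Subgroup G) := by
      ext a
      rw [MonoidHom.mem_ker, Subtype.ext_iff, Subgroup.mem_subgroupOf]
      exact QuotientGroup.eq_one_iff (a : G)
    rw [this, Nat.card_congr (Subgroup.subgroupOfEquivOfLe hZS).toEquiv, hZ2]
  have hgk : Nat.card g.ker = 2 := by
    have : g.ker = σ.ker.map e.symm.toMonoidHom := by
      ext a
      rw [MonoidHom.mem_ker, Subgroup.mem_map_equiv, MonoidHom.mem_ker, MulEquiv.symm_symm]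
      rfl
    rw [this, Subgroup.card_map_of_injective e.symm.injective, hσ2]
  have hu := (CfsgLib.TwoGroups.uniqueOrderP_iff_unique_involution (G := QuaternionGroup k)).1
    (Cfsg.Agent.S0106.uniqueOrderP_quaternion k)
  have heq : f.ker = g.ker := subgroup_eq_of_card_two (fun a b ha hb => e.injective
    (hu (e a) (e b) (by rw [e.orderOf_eq, ha]) (by rw [e.orderOf_eq, hb]))) _ _ hfk hgk
  exact ⟨S.mapSurjective hρs, k, hk, ⟨(MulEquiv.subgroupCongr (Sylow.coe_mapSurjective hρs S)).trans
    (((QuotientGroup.quotientKerEquivOfSurjective f hf).symm.trans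
      (QuotientGroup.quotientMulEquivOfEq heq)).trans
      (QuotientGroup.quotientKerEquivOfSurjective g hg))⟩⟩

/-- **Conditional form of S3099.** -/
theorem perfect_rank_one (hGW : DihedralPerfect.{u}) {X : Type u} [Group X] [Finite X]
    [Group.IsPerfect X] (h1 : Cfsg.PRankLE 2 1 X) (h2 : Even (Nat.card X)) :
    (∃ (F : Type) (_ : Field F) (_ : Fintype F), Odd (Fintype.card F) ∧ 3 < Fintype.card F ∧
        Nonempty (X ⧸ Cfsg.oddCore X ≃* Matrix.SpecialLinearGroup (Fin 2) F)) ∨
      Cfsg.IsNonsplitDoubleCover (X ⧸ Cfsg.oddCore X) ↥(alternatingGroup (Fin 7)) := by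
  haveI : Fact (Nat.Prime 2) := ⟨Nat.prime_two⟩
  obtain ⟨P⟩ : Nonempty (Sylow 2 X) := inferInstance
  have hu : CfsgLib.TwoGroups.UniqueOrderP 2 (P : Subgroup X) := by
    rw [CfsgLib.TwoGroups.uniqueOrderP_iff_unique_involution]
    have key : ∀ a b : (P : Subgroup X), orderOf a = 2 → orderOf b = 2 → a * b = b * a → a = b := by
      intro a b ha hb hab
      by_contra hne
      have ha' : orderOf (a : X) = 2 := (Subgroup.orderOf_coe a).trans ha
      have hb' : orderOf (b : X) = 2 := (Subgroup.orderOf_coe b).trans hb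
      have hab' : (a : X) * b = b * a := congrArg Subtype.val hab
      have hcomm : ∀ s ∈ ({(a : X), (b : X)} : Set X), ∀ t ∈ ({(a : X), (b : X)} : Set X),
          s * t = t * s := by
        rintro s (rfl | rfl) t (rfl | rfl) <;> first | rfl | exact hab' | exact hab'.symm
      set A := Subgroup.closure ({(a : X), (b : X)} : Set X)
      letI : CommGroup A := Subgroup.closureCommGroupOfComm hcomm
      have hsq : ∀ s ∈ A, s ^ 2 = 1 := by
        intro s hs
        induction hs using Subgroup.closure_induction with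
        | mem s hs =>
          rcases hs with rfl | rfl
          · exact orderOf_dvd_iff_pow_eq_one.1 (dvd_of_eq ha')
          · exact orderOf_dvd_iff_pow_eq_one.1 (dvd_of_eq hb')
        | one => exact one_pow 2
        | mul s t hs ht ihs iht =>
          have hst : Commute s t := congrArg Subtype.val (mul_comm (⟨s, hs⟩ : A) ⟨t, ht⟩)
          rw [hst.mul_pow, ihs, iht, one_mul]
        | inv s _ ihs => rw [inv_pow, ihs, inv_one]
      have hA := h1 A ⟨⟨fun s t => mul_comm s t⟩⟩ hsq
      have ha1 : (a : X) ≠ 1 := fun h => by rw [h, orderOf_one] at ha'; omega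
      have hb1 : (b : X) ≠ 1 := fun h => by rw [h, orderOf_one] at hb'; omega
      have hne' : (a : X) ≠ b := fun h => hne (Subtype.ext h)
      have hsub : ({1, (a : X), (b : X)} : Set X) ⊆ (A : Set X) := by
        rintro s (rfl | rfl | rfl)
        exacts [one_mem _, Subgroup.subset_closure (by simp), Subgroup.subset_closure (by simp)]
      have h3 := Set.ncard_le_ncard hsub (Set.toFinite _)
      rw [Set.ncard_eq_three.2 ⟨(1 : X), (a : X), (b : X), ha1.symm, hb1.symm, hne', rfl⟩,
        ← Nat.card_coe_set_eq] at h3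
      simp only [SetLike.coe_sort_coe] at h3
      omega
    intro a b ha hb
    haveI : Nontrivial (P : Subgroup X) :=
      ⟨a, 1, fun h => by rw [h, orderOf_one] at ha; omega⟩
    haveI := P.isPGroup'.center_nontrivial
    obtain ⟨n, hn⟩ := IsPGroup.iff_card.1 (P.isPGroup'.to_subgroup (Subgroup.center (P : Subgroup X)))
    have hn0 : n ≠ 0 := fun h => by
      rw [h, pow_zero] at hn
      exact absurd hn Finite.one_lt_card.ne'
    obtain ⟨c, hc⟩ := exists_prime_orderOf_dvd_card' (G := Subgroup.center (P : Subgroup X)) 2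
      (hn ▸ dvd_pow_self 2 hn0)
    have hc' : orderOf (c : (P : Subgroup X)) = 2 := (Subgroup.orderOf_coe c).trans hc
    exact (key a c ha hc' (Subgroup.mem_center_iff.1 c.2 a)).trans
      (key c b hc' hb (Subgroup.mem_center_iff.1 c.2 b).symm)
  have hperfX : commutator X = ⊤ := Group.IsPerfect.commutator_eq_top
  rcases CfsgLib.TwoGroups.isCyclic_or_quaternion P.isPGroup' hu with hcyc | ⟨-, m, hm, ⟨e⟩⟩
  · exact absurd hcyc (CfsgLib.Signalizer.not_isCyclic_sylow hperfX h2 P)
  set O := Cfsg.oddCore X with hOdef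
  haveI : O.Normal := inferInstance
  have hπs : Function.Surjective (QuotientGroup.mk' O) := QuotientGroup.mk'_surjective O
  have hinj := GW.mk_injective_on_pgroup P.isPGroup' O CfsgLib.Cores.odd_card_oddCore
  let f : (P : Subgroup X) ≃* (P : Subgroup X).map (QuotientGroup.mk' O) :=
    (MonoidHom.ofInjective hinj).trans (MulEquiv.subgroupCongr (by
      rw [MonoidHom.range_comp, Subgroup.range_subtype]))
  let eS := (MulEquiv.subgroupCongr (Sylow.coe_mapSurjective hπs P)).trans (f.symm.trans e)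
  have hk : 2 ≤ 2 ^ m := by
    calc 2 = 2 ^ 1 := rfl
      _ ≤ 2 ^ m := Nat.pow_le_pow_right two_pos hm
  have hev : Even (2 ^ m) := Nat.even_pow.2 ⟨even_two, by omega⟩
  have hOQ : Cfsg.oddCore (X ⧸ O) = ⊥ := CfsgLib.Cores.pPrimeCore_quotient_pPrimeCore 2
  set Z := Subgroup.center (X ⧸ O) with hZ
  have hZ2 : Nat.card Z = 2 := CfsgLib.Involutions.brauer_suzuki _ hk eS hOQ
  have hdH : GW.HasDihedralSylow ((X ⧸ O) ⧸ Z) :=
    hasDihedralSylow_quotient_two _ hk hev eS Z hZ2
  have hOH := oddCore_quotient_two_eq_bot hOQ Z le_rfl hZ2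
  haveI : Group.IsPerfect (X ⧸ O) := Group.IsPerfect.ofSurjective (f := QuotientGroup.mk' O) hπs
  haveI : Group.IsPerfect ((X ⧸ O) ⧸ Z) :=
    Group.IsPerfect.ofSurjective (f := QuotientGroup.mk' Z) (QuotientGroup.mk'_surjective Z)
  have hgw : GW.IsGWGroup ((X ⧸ O) ⧸ Z) := GW.IsGWGroup.of_equiv
    ((QuotientGroup.quotientBot).symm.trans (QuotientGroup.quotientMulEquivOfEq hOH.symm))
    (hGW _ hdH)
  rcases hgw with ⟨F, iF, iT, hodd, h3, ⟨eH⟩⟩ | ⟨⟨eH⟩⟩
  · let σ : (X ⧸ O) →* Matrix.ProjectiveSpecialLinearGroup (Fin 2) F :=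
      eH.toMonoidHom.comp (QuotientGroup.mk' Z)
    have hker : σ.ker = Z := by
      ext a
      show eH (QuotientGroup.mk' Z a) = 1 ↔ _
      rw [MulEquiv.map_eq_one_iff, QuotientGroup.mk'_apply, QuotientGroup.eq_one_iff]
    exact Or.inl ⟨F, iF, iT, hodd, h3, nonempty_mulEquiv_sl hodd h3 σ
      (eH.surjective.comp (QuotientGroup.mk'_surjective Z)) hker.le (by rw [hker]; exact hZ2)
      Group.IsPerfect.commutator_eq_top⟩
  · refine Or.inr ⟨hZ2, ⟨eH⟩, fun L hL => ?_⟩
    have hle : commutator (X ⧸ O) ≤ L := by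
      rw [commutator_def, Subgroup.commutator_le]
      intro a _ b _
      obtain ⟨⟨⟨za, hza⟩, ⟨la, hla⟩⟩, rfl⟩ := hL.2 a
      obtain ⟨⟨⟨zb, hzb⟩, ⟨lb, hlb⟩⟩, rfl⟩ := hL.2 b
      have ca : ∀ g, g * za = za * g := Subgroup.mem_center_iff.1 hza
      have cb : ∀ g, g * zb = zb * g := Subgroup.mem_center_iff.1 hzb
      show ⁅za * la, zb * lb⁆ ∈ L
      have : ⁅za * la, zb * lb⁆ = ⁅la, lb⁆ := by
        simp only [commutatorElement_def, _root_.mul_inv_rev]
        calc za * la * (zb * lb) * (la⁻¹ * za⁻¹) * (lb⁻¹ * zb⁻¹)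
            = za * (la * zb) * lb * la⁻¹ * za⁻¹ * lb⁻¹ * zb⁻¹ := by group
          _ = za * zb * (la * lb * la⁻¹) * za⁻¹ * lb⁻¹ * zb⁻¹ := by rw [cb la]; group
          _ = zb * (za * (la * lb * la⁻¹)) * za⁻¹ * lb⁻¹ * zb⁻¹ := by rw [← ca zb]; group
          _ = zb * (la * lb * la⁻¹ * za) * za⁻¹ * lb⁻¹ * zb⁻¹ := by rw [← ca]
          _ = zb * (la * lb * la⁻¹ * lb⁻¹) * zb⁻¹ := by group
          _ = la * lb * la⁻¹ * lb⁻¹ := by rw [← cb]; group
      rw [this]
      exact mul_mem (mul_mem (mul_mem hla hlb) (inv_mem hla)) (inv_mem hlb)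
    rw [Group.IsPerfect.commutator_eq_top] at hle
    have h4 := hL.card_mul
    rw [top_le_iff.1 hle, Subgroup.card_top, hZ2] at h4
    have := Nat.card_pos (α := X ⧸ Cfsg.oddCore X)
    omega

end CfsgLib.GWApps
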